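import Cfsg.Agent.Lib.OutS.McL
import Cfsg.Agent.Lib.Uni.Basic
import Cfsg.Agent.Lib.Calc.Model3

/-!
# The McLaughlin group on 275 points
-/

set_option autoImplicit false
set_option maxRecDepth 100000

namespace Cfsg.Lib.McR3

open MulAction Cfsg.Lib.Calc Cfsg.Lib.Grp Cfsg.Lib.Leech Cfsg.Lib.OutS Cfsg.Lib.OutS.McL

theorem exists_perm {G X : Type*} [Group G] [MulAction G X] {n : ℕ} [NeZero n] {pt : ℕ → X} (hi : Inj n pt)
    (h : ∀ g : G, ∃ f, Act n pt g f) : ∃ ρ : G →* Equiv.Perm (Fin n), ∀ g (i : Fin n), g • pt i = pt (ρ g i) := by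
  choose f hf using h
  have u : ∀ {i j : Fin n}, pt i = pt j → i = j := fun e => Fin.ext (hi _ (Fin.is_lt _) _ (Fin.is_lt _) e)
  let s : G → Fin n → Fin n := fun g i => ⟨f g i, (hf g i i.2).1⟩
  have hs : ∀ g (i : Fin n), g • pt i = pt (s g i) := fun g i => (hf g i i.2).2
  let A : MulAction G (Fin n) :=
    { smul := s
      one_smul := fun i => u ((hs 1 i).symm.trans (one_smul _ _))
      mul_smul := fun g k i => u ((hs _ i).symm.trans ((mul_smul _ _ _).trans (by rw [hs k i, hs g]; rfl))) }
  exact ⟨@MulAction.toPermHom G (Fin n) _ A, hs⟩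

theorem exists_rho : ∃ ρ : mcl →* Equiv.Perm (Fin 275), ∀ g (i : Fin 275), g • ptV vecs i = ptV vecs (ρ g i) :=
  exists_perm netG.inj (netG.mdl_of_cA cA).act

/-- The permutation representation of degree 275. -/
noncomputable def rho : mcl →* Equiv.Perm (Fin 275) := exists_rho.choose

theorem rho_spec (g : mcl) (i : Fin 275) : g • ptV vecs i = ptV vecs (rho g i) := exists_rho.choose_spec g i

theorem exists_gam (c : ℕ) : ∃ g : mcl, rho g = net.gam 275 c := by
  have : ∃ g : mcl, net.Acts 275 (ptV vecs) g c := (lt_or_ge c net.K).elim (netG.acts c) fun hc =>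
    ⟨1, fun i _ => by rw [one_smul, Net.sig, if_neg hc.not_gt]⟩
  obtain ⟨g, hg⟩ := this
  refine ⟨g, Equiv.ext fun i => Fin.ext ?_⟩
  have h1 := netG.ok.acts_gam c i i.2
  have h2 := (netG.ok.sig_lt_iff c i).2 i.2
  rw [show finPt 275 i = i from Fin.ext (finPt_val _ i.2)] at h1
  rw [show net.gam 275 c i = _ from h1, finPt_val _ h2]
  exact netG.inj _ (Fin.is_lt _) _ h2 ((rho_spec g i).symm.trans (hg i i.2))

/-- The letters. -/
noncomputable def gam (c : ℕ) : mcl := (exists_gam c).choose

theorem rho_gam (c : ℕ) : rho (gam c) = net.gam 275 c := (exists_gam c).choose_spec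

/-- The inverse letters. -/
def iv : ℕ := 3277888

theorem lab0 : Lab (net.gam 275) iv := netG.ok.lab_gam (w := 9) (by decide) (by decide) (by decide +kernel)

theorem rho_injective : Function.Injective rho := by
  have := simple_mcl
  refine (MonoidHom.ker_eq_bot_iff _).1 ((MonoidHom.normal_ker rho).eq_bot_or_eq_top.resolve_right fun e => ?_)
  have h := netG.ok.smul_eq (inj_finPt 275) lab0 netG.ok.acts_gam (t := .l 1) (i := 0) (j := net.sig 1 0)
    (by decide +kernel)
  change net.gam 275 1 • _ = _ at h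
  rw [← rho_gam, (e.ge trivial : gam 1 ∈ rho.ker), one_smul] at h
  exact absurd h (by decide +kernel)

theorem isLab : Lab gam iv :=
  ⟨rho_injective (by rw [rho_gam, lab0.zero, map_one]), fun c => rho_injective (by
    rw [map_mul, rho_gam, rho_gam, lab0.inv, map_one])⟩

/-- An element of order 7 of the point stabilizer. -/
def h1 : W := wd [1, 1, 3, 2, 4]
/-- An element of order 5 of the point stabilizer. -/
def h2 : W := wd [3, 3, 2, 2, 4, 4, 4]
/-- Words in `h1`, `h2`. -/
def hw : List ℕ → W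
  | [] => .l 0
  | c :: l => .mul (if c = 1 then h1 else if c = 2 then .inv h1 else if c = 3 then h2 else .inv h2) (hw l)

/-- A stabilizer chain of the point stabilizer. -/
def lH : List Low := [⟨4, [h1, h2], 7, 112⟩,
  ⟨11, [hw [1, 3, 2], hw [1, 1, 4, 1, 3]], 6, 81⟩,
  ⟨149, [hw [1, 3, 1, 4, 1, 3, 1, 3, 2], hw [2, 2, 4, 1, 1, 4, 2, 4, 4]], 3, 10⟩,
  ⟨183, [hw [1, 3, 3, 1, 3, 1, 4, 4, 2, 3, 1, 4], hw [3, 3, 1, 1, 4, 4, 1, 3, 1, 3, 2, 4]], 2, 9⟩,
  ⟨188, [hw [2, 4, 4, 1, 4, 2, 3, 1, 3, 1, 1, 1, 4]], 3, 4⟩]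
/-- A stabilizer chain. -/
def low : List Low := ⟨52, [.l 1, .l 3], 8, 275⟩ :: lH

/-- The action on 275 points. -/
@[reducible] noncomputable def act : MulAction mcl (Fin 275) := MulAction.compHom (Fin 275) rho

attribute [local instance] act

theorem model : NetModel mcl gam iv net 275 low :=
  NetModel.of_hom netG.ok isLab rho rho_gam (by decide +kernel) (by rw [card_mcl]; decide)

/-- Points. -/
abbrev pt (i : ℕ) : Fin 275 := finPt 275 i
/-- The point stabilizer. -/
noncomputable abbrev HH : Subgroup mcl := stabilizer mcl (pt 52)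

theorem card_hh : Nat.card HH = 3265920 := model.card_stabilizer

theorem top_eq : genW gam [.l 1, .l 2, .l 3, .l 4] = ⊤ :=
  have := model.finite
  Subgroup.eq_top_of_le_card _ (model.card.trans_le (model.le_card (l' := low) (by decide +kernel) fun t ht =>
    W.ev_mem_of_overW isLab.zero (fun _ h => mem_genW gam h)
      (List.all_eq_true.1 (by decide +kernel : (lowWords low).all (W.overW [.l 1, .l 2, .l 3, .l 4]) = true) t ht)))

theorem hh : HH = genW gam [h1, h2] :=
  have := model.finite
  (Subgroup.eq_of_le_of_card_ge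
    (genW_le.2 (netG.ok.fix_of_fixAll (inj_finPt _) isLab model.acts (b := 52) (by decide +kernel)))
    (card_hh.trans_le (model.le_card (l' := lH) (by decide +kernel) fun t ht =>
      W.ev_mem_of_overW isLab.zero (fun _ h => mem_genW gam h)
        (List.all_eq_true.1 (by decide +kernel : (lowWords lH).all (W.overW [h1, h2]) = true) t ht)))).symm

theorem iso_psu {K : Type} [Field K] [Fintype K] (hK : Fintype.card K = 9) : Nonempty (HH ≃* PSU 4 K 3) := by
  have := model.finite
  have e : ptV vecs 52 = (vXA : L2) := code2_injective (by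
    rw [code2_mk, code_vXA]; exact (exists_code2 (get_lt 24 vecs 52)).choose_spec.trans (by decide +kernel))
  have k := Subgroup.subgroupOfEquivOfLe (inf_le_left : u43 ≤ mcl)
  have h : u43.subgroupOf mcl = HH := Subgroup.eq_of_le_of_card_ge (fun g hg => Fin.ext (by
      refine netG.inj _ (Fin.is_lt _) 52 (by decide) ((rho_spec g (pt 52)).symm.trans ?_)
      change (g : Co0) • ptV vecs 52 = _
      rw [e, smul_mk, show (g : Co0) • vXA = vXA from hg.2]))
    (by rw [card_hh, Nat.card_congr k.toEquiv, card_u43])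
  exact ⟨((MulEquiv.subgroupCongr h).symm.trans (k.trans (mapCo1Equiv _ Uni.neg_u43))).trans
    (Uni.u43_equiv.some.trans (Unitary.nonempty_psu_congr hK Unitary.card_K9 4).some.symm)⟩

end Cfsg.Lib.McR3
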